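import Cfsg.Prelude.Def_CaseTheorems
import Mathlib.GroupTheory.SpecificGroups.Cyclic
import Mathlib.LinearAlgebra.Matrix.GeneralLinearGroup.Projective

/-!
The shape of a non-solvable group with cyclic odd Sylow subgroups and almost cyclic Sylow
2-subgroups.
-/

set_option autoImplicit false

open Cfsg

namespace Cfsg.Agent.GW

universe u

/-- All subgroups of odd prime power order are cyclic. -/
def OddCyclic (G : Type u) [Group G] : Prop :=
  ∀ q : ℕ, q.Prime → q ≠ 2 → ∀ P : Subgroup G, IsPGroup q P → IsCyclic P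

/-- A product `X × L` of index at most two, `X` of odd order and `L` one of `PSL₂(p)`, `SL₂(p)`. -/
def AlmostPSL (G : Type u) [Group G] : Prop :=
  ∃ (p : ℕ) (_ : Fact p.Prime), 5 ≤ p ∧ ∃ X L : Subgroup G, X.Normal ∧ L.Normal ∧ X ⊓ L = ⊥ ∧
    (X ⊔ L).index ∣ 2 ∧ Odd (Nat.card X) ∧ (Nat.card X).Coprime (Nat.card L) ∧
    (Nonempty (L ≃* Matrix.ProjectiveSpecialLinearGroup (Fin 2) (ZMod p)) ∨
      Nonempty (L ≃* Matrix.SpecialLinearGroup (Fin 2) (ZMod p)))

end Cfsg.Agent.GW
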